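import Mathlib
import Cfsg.Agent.S0205
import Cfsg.Agent.S0324
import Cfsg.Agent.S0804
import Cfsg.Agent.ClassicalGeometry.PSL2Basic
import Cfsg.Agent.GH.C2SevenTop
import Cfsg.Agent.Lib.InvolutionKernel
import Cfsg.Agent.Lib.SylowNormalInf
import Cfsg.Agent.OddCyclic.ClaimC.SzIso
import Cfsg.Agent.OddOrderLocal.HallPi
import Cfsg.Agent.ThreePrime.Main
import Cfsg.Agent.ThreePrime.OrderThree
import Cfsg.Agent.Walter.StepAll
import Cfsg.Agent.H505.TwoLocal

/-!
# Existence of Hall `{2,3}`- and `{2,3,5}`-subgroups in groups with small Sylow subgroups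
-/

set_option autoImplicit false

namespace Cfsg.Agent.H505.HallNumTwo

open Subgroup

universe u

/-- existence of a Hall `π`-subgroup -/
def E (π : Set ℕ) (G : Type u) [Group G] : Prop :=
  ∃ H : Subgroup G, (∀ p : ℕ, p.Prime → p ∣ Nat.card H → p ∈ π) ∧
    (∀ p : ℕ, p.Prime → p ∈ π → ¬ p ∣ H.index)

theorem E_of_solvable {G : Type u} [Group G] [Finite G] (hG : Group.IsSolvable G) (π : Set ℕ) :
    E π G := by
  obtain ⟨K, h1, h2, -⟩ := Cfsg.Agent.OddOrderLocal.HallPi.exists_hall_ge_top (G := G) π (X := ⊥)
    (fun p hp h => by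
      rw [Subgroup.card_bot] at h
      exact absurd (Nat.dvd_one.mp h) hp.ne_one)
  exact ⟨K, h1, h2⟩

theorem E_of_subgroup {G : Type u} [Group G] {π : Set ℕ} (H : Subgroup G) (hH : E π H)
    (hidx : ∀ p : ℕ, p.Prime → p ∈ π → ¬ p ∣ H.index) : E π G := by
  obtain ⟨K, h1, h2⟩ := hH
  refine ⟨K.map H.subtype, ?_, ?_⟩
  · have h3 : Nat.card (K.map H.subtype) = Nat.card K :=
      Nat.card_congr (K.equivMapOfInjective _ H.subtype_injective).toEquiv.symm
    rw [h3]; exact h1
  · intro p hp hπ hd
    rw [Subgroup.index_map_subtype] at hd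
    rcases (hp.dvd_mul).mp hd with h | h
    · exact h2 p hp hπ h
    · exact hidx p hp hπ h

theorem E_mono {G : Type u} [Group G] {π π' : Set ℕ} (h : E π G)
    (hle : π ⊆ π') (hno : ∀ p ∈ π', p ∉ π → p.Prime → ¬ p ∣ Nat.card G) : E π' G := by
  obtain ⟨H, h1, h2⟩ := h
  refine ⟨H, fun p hp hd => hle (h1 p hp hd), fun p hp hπ hd => ?_⟩
  by_cases hpπ : p ∈ π
  · exact h2 p hp hpπ hd
  · exact hno p hπ hpπ hp (hd.trans H.index_dvd_card)

/-- An `E`-subgroup has order `m`, when `|G| = m k` and `π` is the set of primes of `m`. -/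
theorem exists_card_of_E {G : Type u} [Group G] [Finite G] {π : Set ℕ} {m k : ℕ}
    (hG : Nat.card G = m * k) (hm : ∀ p : ℕ, p.Prime → p ∣ m → p ∈ π)
    (hk : ∀ p : ℕ, p.Prime → p ∣ k → p ∉ π) (h : E π G) : ∃ H : Subgroup G, Nat.card H = m := by
  obtain ⟨H, h1, h2⟩ := h
  refine ⟨H, ?_⟩
  have h3 := H.card_mul_index
  rw [hG] at h3
  apply Nat.dvd_antisymm
  · have h4 : (Nat.card H).Coprime k := Nat.coprime_of_dvd (fun p hp h5 h6 => hk p hp h6 (h1 p hp h5))
    exact h4.dvd_of_dvd_mul_right (h3 ▸ dvd_mul_right _ _)
  · have h4 : m.Coprime H.index := Nat.coprime_of_dvd (fun p hp h5 h6 => h2 p hp (hm p hp h5) h6)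
    exact h4.dvd_of_dvd_mul_right (h3.symm ▸ dvd_mul_right m k)

theorem solvable_of_odd {G : Type u} [Group G] [Finite G] (h : ¬ 2 ∣ Nat.card G) :
    Group.IsSolvable G :=
  Cfsg.Agent.S0205.result (Nat.not_even_iff_odd.mp fun h' => h (even_iff_two_dvd.mp h'))

theorem solvable_of_ext {G : Type u} [Group G] [Finite G] (N : Subgroup G) [N.Normal]
    (h1 : Group.IsSolvable N) (h2 : Group.IsSolvable (G ⧸ N)) : Group.IsSolvable G :=
  (Group.isSolvable_iff_subgroup_quotient N).mpr ⟨h1, h2⟩

theorem solvable_of_pGroup {G : Type u} [Group G] [Finite G] {p : ℕ} [Fact p.Prime]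
    (h : IsPGroup p G) : Group.IsSolvable G := by
  haveI : Group.IsNilpotent G := h.isNilpotent
  infer_instance

theorem solvable_of_not_four {G : Type u} [Group G] [Finite G] (h : ¬ 4 ∣ Nat.card G) :
    Group.IsSolvable G := by
  by_cases h2 : 2 ∣ Nat.card G
  · haveI : Fact (Nat.Prime 2) := ⟨Nat.prime_two⟩
    obtain ⟨t, ht⟩ := exists_prime_orderOf_dvd_card' (G := G) 2 h2
    have htt : t * t = 1 := by rw [← pow_two, ← ht, pow_orderOf_eq_one]
    have ht1 : t ≠ 1 := by
      rintro rfl
      rw [orderOf_one] at ht
      norm_num at ht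
    obtain ⟨K, hKn, hKo, hKi, -⟩ := Cfsg.Agent.Lib.InvolutionKernel.exists_odd_index_two htt ht1
      (fun h' => h (h'.trans (Subgroup.card_subgroup_dvd_card _)))
    haveI := hKn
    refine solvable_of_ext K (Cfsg.Agent.S0205.result hKo) ?_
    apply solvable_of_pGroup (p := 2)
    apply IsPGroup.of_card (n := 1)
    rw [pow_one]; exact hKi
  · exact solvable_of_odd h2

/-- A group of order not divisible by 3 and 64 is solvable. -/
theorem solvable_of_not_three (n : ℕ) : ∀ (G : Type u) [Group G] [Finite G], Nat.card G = n →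
    ¬ 3 ∣ Nat.card G → ¬ 64 ∣ Nat.card G → Group.IsSolvable G := by
  induction n using Nat.strong_induction_on with
  | _ n ih =>
    intro G _ _ hn h3 h64
    by_cases hs : ∃ N : Subgroup G, N.Normal ∧ N ≠ ⊥ ∧ N ≠ ⊤
    · obtain ⟨N, hNn, hNb, hNt⟩ := hs
      haveI := hNn
      have hc := N.card_eq_card_quotient_mul_card_subgroup
      have h1 : 1 < Nat.card N := by
        rw [Finite.one_lt_card_iff_nontrivial, Subgroup.nontrivial_iff_ne_bot]
        exact hNb
      have h2 : Nat.card N < Nat.card G := by
        rcases (Nat.le_of_dvd Nat.card_pos N.card_subgroup_dvd_card).lt_or_eq with h | h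
        · exact h
        · exact absurd (Subgroup.eq_top_of_card_eq N h) hNt
      have h4 : Nat.card (G ⧸ N) < Nat.card G := by
        have h5 : 0 < Nat.card (G ⧸ N) := Nat.card_pos
        rw [hc]
        exact lt_mul_of_one_lt_right h5 h1
      apply solvable_of_ext N
      · exact ih _ (hn ▸ h2) N rfl (fun h => h3 (h.trans N.card_subgroup_dvd_card))
          (fun h => h64 (h.trans N.card_subgroup_dvd_card))
      · exact ih _ (hn ▸ h4) (G ⧸ N) rfl (fun h => h3 (h.trans ⟨_, hc⟩))
          (fun h => h64 (h.trans ⟨_, hc⟩))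
    · push Not at hs
      by_cases hnt : Nontrivial G
      · haveI : IsSimpleGroup G := { toNontrivial := hnt, eq_bot_or_eq_top_of_normal := by
                                      intro N hN
                                      by_cases h : N = ⊥
                                      · exact Or.inl h
                                      · exact Or.inr (hs N hN h) }
        by_contra hns
        have hab : ∃ a b : G, a * b ≠ b * a := by
          by_contra hcon
          push Not at hcon
          exact hns (Group.isSolvable_of_comm hcon)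
        obtain ⟨F, _, _, m, hm, hF, ⟨e⟩⟩ := Cfsg.Agent.ThreePrime.Main.isoSuzuki hab h3
        obtain ⟨e'⟩ := Cfsg.Agent.OddCyclic.ClaimC.SzIso.iso hm hF
        apply h64
        rw [Nat.card_congr (e.trans e'.symm).toEquiv, Cfsg.Agent.S0324.result hm hF]
        have h6 : 64 ∣ (2 ^ (2 * m + 1)) ^ 2 := by
          rw [← pow_mul, show (64 : ℕ) = 2 ^ 6 from rfl]
          exact pow_dvd_pow 2 (by omega)
        exact (h6.mul_right _).mul_right _
      · rw [not_nontrivial_iff_subsingleton] at hnt
        infer_instance

/-- no normal 2-complement in a nonsolvable group -/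
theorem no_complement {G : Type u} [Group G] [Finite G] (hG : ¬ Group.IsSolvable G) (S : Sylow 2 G) :
    ¬ ∃ N : Subgroup G, N.Normal ∧ N.IsComplement' (S : Subgroup G) := by
  rintro ⟨N, hN, hc⟩
  haveI := hN
  haveI : Fact (Nat.Prime 2) := ⟨Nat.prime_two⟩
  apply hG
  apply solvable_of_ext N
  · apply solvable_of_odd
    rw [← hc.index_eq_card]
    exact S.not_dvd_index
  · apply solvable_of_pGroup (p := 2)
    obtain ⟨k, hk⟩ := IsPGroup.iff_card.mp S.isPGroup'
    apply IsPGroup.of_card (n := k)
    have : Nat.card (G ⧸ N) = N.index := rfl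
    rw [this, hc.symm.index_eq_card, hk]

/-- the 2-part of the index of a subgroup containing a Sylow 2-subgroup -/
theorem not_two_dvd_index {G : Type u} [Group G] [Finite G] (S : Sylow 2 G) (N : Subgroup G)
    (h : (S : Subgroup G) ≤ N) : ¬ 2 ∣ N.index := by
  haveI : Fact (Nat.Prime 2) := ⟨Nat.prime_two⟩
  intro h2
  exact S.not_dvd_index (h2.trans (Subgroup.index_dvd_of_le h))

theorem not_dvd_index_of_sq {G : Type u} [Group G] [Finite G] {p : ℕ} (N : Subgroup G)
    (hp : ¬ p * p ∣ Nat.card G) (h : p ∣ Nat.card N) : ¬ p ∣ N.index := by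
  intro h2
  apply hp
  rw [← N.card_mul_index]
  exact Nat.mul_dvd_mul h h2

theorem solvable_sylow_normalizer {G : Type u} [Group G] [Finite G] (S : Sylow 2 G) :
    Group.IsSolvable (Subgroup.normalizer ((S : Subgroup G) : Set G)) := by
  haveI : Fact (Nat.Prime 2) := ⟨Nat.prime_two⟩
  set N := Subgroup.normalizer ((S : Subgroup G) : Set G) with hN
  have hle : (S : Subgroup G) ≤ N := Subgroup.le_normalizer
  haveI : ((S : Subgroup G).subgroupOf N).Normal :=
    (Subgroup.normal_subgroupOf_iff_le_normalizer hle).mpr le_rfl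
  apply solvable_of_ext ((S : Subgroup G).subgroupOf N)
  · apply solvable_of_pGroup (p := 2)
    exact S.isPGroup'.comap_of_injective N.subtype N.subtype_injective
  · apply solvable_of_odd
    have h1 : Nat.card (N ⧸ (S : Subgroup G).subgroupOf N) = (S : Subgroup G).relIndex N := rfl
    rw [h1]
    intro h2
    exact S.not_dvd_index (h2.trans (Subgroup.relIndex_dvd_index_of_le hle))

/-- The case of Sylow 2-subgroups of order at most 4. -/
theorem claim12 {G : Type u} [Group G] [Finite G] (h8 : ¬ 8 ∣ Nat.card G) (h9 : ¬ 9 ∣ Nat.card G) :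
    E {2, 3} G := by
  haveI : Fact (Nat.Prime 2) := ⟨Nat.prime_two⟩
  by_cases hs : Group.IsSolvable G
  · exact E_of_solvable hs _
  obtain ⟨S⟩ : Nonempty (Sylow 2 G) := inferInstance
  rcases Cfsg.Agent.H505.TwoLocal.alternatives S (fun h => h8 ((by norm_num : (8 : ℕ) ∣ 16).trans h))
    (no_complement hs S) with ⟨Q, hQS, h4Q, hSQ, h3⟩ | ⟨hS, -⟩
  · have hQS' : Q = S := by
      apply Subgroup.eq_of_le_of_card_ge hQS
      have h1 : Nat.card Q ∣ Nat.card (S : Subgroup G) := Subgroup.card_dvd_of_le hQS
      obtain ⟨k, hk⟩ := IsPGroup.iff_card.mp S.isPGroup'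
      have hk3 : k ≤ 2 := by
        by_contra h
        apply h8
        have h1 : 2 ^ 3 ∣ Nat.card (S : Subgroup G) := by rw [hk]; exact pow_dvd_pow 2 (by omega)
        exact h1.trans (S : Subgroup G).card_subgroup_dvd_card
      have h2 : Nat.card (S : Subgroup G) ∣ 4 := by rw [hk]; exact pow_dvd_pow 2 hk3
      exact Nat.le_of_dvd Nat.card_pos (h2.trans h4Q)
    subst hQS'
    refine E_of_subgroup _ (E_of_solvable (solvable_sylow_normalizer S) _) ?_
    intro p hp hpπ
    rcases hpπ with rfl | hpπ
    · exact not_two_dvd_index S _ hSQ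
    · rw [Set.mem_singleton_iff] at hpπ
      subst hpπ
      exact not_dvd_index_of_sq _ h9 h3
  · exact absurd (hS ▸ (S : Subgroup G).card_subgroup_dvd_card) h8

/-- Reduction step common to both cases: a quotient by a nontrivial normal subgroup. -/
theorem quotient_step {G : Type u} [Group G] [Finite G] {π : Set ℕ} (hE : ¬ E π G)
    (hsub : ∀ H : Subgroup G, H ≠ ⊤ → E π H) (N : Subgroup G) [N.Normal] (h : E π (G ⧸ N)) :
    ∀ p : ℕ, p.Prime → p ∣ Nat.card (G ⧸ N) → p ∈ π := by
  obtain ⟨H, h1, h2⟩ := h
  have hidx : (H.comap (QuotientGroup.mk' N)).index = H.index :=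
    H.index_comap_of_surjective (QuotientGroup.mk'_surjective N)
  by_cases ht : H.comap (QuotientGroup.mk' N) = ⊤
  · have h3 : H = ⊤ := by
      rw [← Subgroup.index_eq_one, ← hidx, ht, Subgroup.index_top]
    rw [h3, Subgroup.card_top] at h1
    exact h1
  · exact absurd (E_of_subgroup _ (hsub _ ht) (by rw [hidx]; exact h2)) hE

/-- A finite simple nonabelian group with abelian Sylow 2-subgroups. -/
theorem walter {G : Type u} [Group G] [Finite G] [IsSimpleGroup G] (hs : ¬ Group.IsSolvable G)
    (S : Sylow 2 G) (hS : ∀ a ∈ (S : Subgroup G), ∀ b ∈ (S : Subgroup G), a * b = b * a) :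
    (∃ a : ℕ, 2 ≤ a ∧ ∃ (F : Type) (_ : Field F) (_ : Fintype F), Fintype.card F = 2 ^ a ∧
      Nonempty (G ≃* Matrix.ProjectiveSpecialLinearGroup (Fin 2) F)) ∨
    (∃ (F : Type) (_ : Field F) (_ : Fintype F),
      (Fintype.card F % 8 = 3 ∨ Fintype.card F % 8 = 5) ∧ 5 ≤ Fintype.card F ∧
      Nonempty (G ≃* Matrix.ProjectiveSpecialLinearGroup (Fin 2) F)) ∨
    ∃ (F : Type) (_ : Field F) (_ : Fintype F),
      (Fintype.card F % 8 = 3 ∨ Fintype.card F % 8 = 5) ∧ 5 ≤ Fintype.card F ∧
      (∃ t : G, orderOf t = 2) ∧
      ∀ t : G, orderOf t = 2 → Nonempty (Subgroup.centralizer ({t} : Set G) ≃*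
        Multiplicative (ZMod 2) × Matrix.ProjectiveSpecialLinearGroup (Fin 2) F) := by
  apply Cfsg.Agent.Walter.Main.centralizer_of_wType
  apply Cfsg.Agent.Walter.Main.wType_of_step Cfsg.Agent.Walter.StepAll.step G inferInstance _ S hS
  intro hcomm
  exact hs (Group.isSolvable_of_comm fun a b => hcomm.is_comm.comm a b)

/-- `q² - 1` for `q ≡ 3, 5 mod 8`: exactly divisible by 8. -/
theorem sq_sub_one {q : ℕ} (hq : q % 8 = 3 ∨ q % 8 = 5) : ∃ j, q ^ 2 - 1 = 8 * (2 * j + 1) := by
  have h1 := Nat.div_add_mod q 8
  set a := q / 8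
  rcases hq with h | h
  · refine ⟨4 * a * a + 3 * a, ?_⟩
    rw [← h1, h]
    have : (8 * a + 3) ^ 2 = 8 * (2 * (4 * a * a + 3 * a) + 1) + 1 := by ring
    omega
  · refine ⟨4 * a * a + 5 * a + 1, ?_⟩
    rw [← h1, h]
    have : (8 * a + 5) ^ 2 = 8 * (2 * (4 * a * a + 5 * a + 1) + 1) + 1 := by ring
    omega

theorem card_psl_odd {F : Type} [Field F] [Fintype F]
    (hq : Fintype.card F % 8 = 3 ∨ Fintype.card F % 8 = 5) :
    ∃ j, Nat.card (Matrix.ProjectiveSpecialLinearGroup (Fin 2) F) = 4 * (2 * j + 1) := by
  have hodd : Odd (Fintype.card F) := by rw [Nat.odd_iff]; omega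
  have h1 := Cfsg.Agent.ClassicalGeometry.PSL2Basic.card_PSL2_odd (F := F) hodd
  obtain ⟨j, hj⟩ := sq_sub_one hq
  rw [hj] at h1
  obtain ⟨a, ha⟩ := hodd
  refine ⟨(2 * a + 1) * j + a, ?_⟩
  have h2 : Nat.card (Matrix.ProjectiveSpecialLinearGroup (Fin 2) F) * 2 =
      (4 * (2 * ((2 * a + 1) * j + a) + 1)) * 2 := by
    rw [h1, ha]; ring
  omega

/-- The case of Sylow 2-subgroups of order at most 8. -/
theorem claim24 (n : ℕ) : ∀ (G : Type u) [Group G] [Finite G], Nat.card G = n →
    ¬ 16 ∣ Nat.card G → ¬ 9 ∣ Nat.card G → E {2, 3} G := by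
  classical
  haveI : Fact (Nat.Prime 2) := ⟨Nat.prime_two⟩
  induction n using Nat.strong_induction_on with
  | _ n ih =>
    intro G _ _ hn h16 h9
    by_contra hE
    have hns : ¬ Group.IsSolvable G := fun h => hE (E_of_solvable h _)
    have hsub : ∀ H : Subgroup G, H ≠ ⊤ → E {2, 3} H := by
      intro H hH
      have hlt : Nat.card H < Nat.card G := by
        rcases (Nat.le_of_dvd Nat.card_pos H.card_subgroup_dvd_card).lt_or_eq with h | h
        · exact h
        · exact absurd (Subgroup.eq_top_of_card_eq H h) hH
      exact ih _ (hn ▸ hlt) H rfl (fun h => h16 (h.trans H.card_subgroup_dvd_card))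
        (fun h => h9 (h.trans H.card_subgroup_dvd_card))
    -- nontrivial normal subgroups are not solvable
    have hN : ∀ N : Subgroup G, N.Normal → N ≠ ⊥ → ¬ Group.IsSolvable N := by
      intro N hNn hNb hNs
      haveI := hNn
      have hc := N.card_eq_card_quotient_mul_card_subgroup
      have h1 : 1 < Nat.card N := by
        rw [Finite.one_lt_card_iff_nontrivial, Subgroup.nontrivial_iff_ne_bot]
        exact hNb
      have h4 : Nat.card (G ⧸ N) < Nat.card G := by
        have h5 : 0 < Nat.card (G ⧸ N) := Nat.card_pos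
        rw [hc]
        exact lt_mul_of_one_lt_right h5 h1
      have hq := quotient_step hE hsub N (ih _ (hn ▸ h4) (G ⧸ N) rfl (fun h => h16 (h.trans ⟨_, hc⟩))
        (fun h => h9 (h.trans ⟨_, hc⟩)))
      apply hns
      apply solvable_of_ext N hNs
      -- the order of the quotient is `2^a 3^b`
      have hpos : Nat.card (G ⧸ N) ≠ 0 := Nat.card_pos.ne'
      obtain ⟨a, r, hr, har⟩ := Nat.exists_eq_pow_mul_and_not_dvd hpos 2 (by norm_num)
      have hr0 : r ≠ 0 := by rintro rfl; exact hr ⟨0, rfl⟩
      obtain ⟨b, s, hs, hbs⟩ := Nat.exists_eq_pow_mul_and_not_dvd hr0 3 (by norm_num)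
      have hs1 : s = 1 := by
        by_contra hs1
        obtain ⟨p, hp, hps⟩ := Nat.exists_prime_and_dvd hs1
        have h6 : p ∣ r := hbs ▸ hps.mul_left _
        have h5 : p ∣ Nat.card (G ⧸ N) := har ▸ h6.mul_left _
        rcases hq p hp h5 with h7 | h7
        · exact hr (h7 ▸ h6)
        · rw [Set.mem_singleton_iff] at h7
          exact hs (h7 ▸ hps)
      apply Cfsg.Agent.GH.C2SevenTop.solvable_of_dvd (p := 2) (q := 3) (a := a) (b := b)
        Nat.prime_two Nat.prime_three
      rw [har, hbs, hs1, mul_one]
    obtain ⟨S⟩ : Nonempty (Sylow 2 G) := inferInstance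
    have hloc : ∀ Q : Subgroup G, Q ≤ S → Q ≠ ⊥ →
        (S : Subgroup G) ≤ Subgroup.normalizer (Q : Set G) →
        ¬ 3 ∣ Nat.card (Subgroup.normalizer (Q : Set G)) := by
      intro Q hQS hQ1 hSQ h3
      by_cases ht : Subgroup.normalizer (Q : Set G) = ⊤
      · have hQn : Q.Normal := Subgroup.normalizer_eq_top_iff.mp ht
        exact hN Q hQn hQ1 (solvable_of_pGroup (S.isPGroup'.to_le hQS))
      · apply hE
        refine E_of_subgroup _ (hsub _ ht) ?_
        intro p hp hpπ
        rcases hpπ with rfl | hpπ
        · exact not_two_dvd_index S _ hSQ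
        · rw [Set.mem_singleton_iff] at hpπ
          subst hpπ
          exact not_dvd_index_of_sq _ h9 h3
    rcases Cfsg.Agent.H505.TwoLocal.alternatives S h16 (no_complement hns S) with
      ⟨Q, hQS, h4Q, hSQ, h3⟩ | ⟨hS8, htrans⟩
    · refine hloc Q hQS ?_ hSQ h3
      rintro rfl
      rw [Subgroup.card_bot] at h4Q
      norm_num at h4Q
    -- the Sylow 2-subgroup is contained in every nontrivial normal subgroup
    have hSN : ∀ N : Subgroup G, N.Normal → N ≠ ⊥ → (S : Subgroup G) ≤ N := by
      intro N hNn hNb
      have h2 : 2 ∣ Nat.card N := by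
        by_contra h
        exact hN N hNn hNb (solvable_of_odd h)
      obtain ⟨⟨t, htN⟩, ht⟩ := exists_prime_orderOf_dvd_card' (G := N) 2 h2
      rw [Subgroup.orderOf_mk] at ht
      have hzp : IsPGroup 2 (zpowers t) := by
        apply IsPGroup.of_card (n := 1)
        rw [Nat.card_zpowers, ht, pow_one]
      obtain ⟨P, hP⟩ := hzp.exists_le_sylow
      obtain ⟨g, hg⟩ := MulAction.exists_smul_eq G P S
      have htP : t ∈ P := hP (mem_zpowers t)
      have hgt : g * t * g⁻¹ ∈ (S : Subgroup G) := by
        rw [← hg]
        exact Subgroup.smul_mem_pointwise_smul t (MulAut.conj g) P htP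
      have hgN : g * t * g⁻¹ ∈ N := hNn.conj_mem t htN g
      have hg1 : g * t * g⁻¹ ≠ 1 := by
        intro h
        rw [mul_inv_eq_one, mul_eq_left] at h
        rw [h, orderOf_one] at ht
        norm_num at ht
      intro y hy
      by_cases hy1 : y = 1
      · rw [hy1]; exact N.one_mem
      · obtain ⟨n, -, hn⟩ := htrans _ hgt y hy hg1 hy1
        rw [← hn]
        exact hNn.conj_mem _ hgN n
    have hnt : Nontrivial G := by
      by_contra h
      rw [not_nontrivial_iff_subsingleton] at h
      exact hns inferInstance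
    haveI : IsSimpleGroup G := { toNontrivial := hnt, eq_bot_or_eq_top_of_normal := by
                                  intro N hNn
                                  by_contra hcon
                                  push Not at hcon
                                  obtain ⟨hNb, hNt⟩ := hcon
                                  have h3 : 3 ∣ Nat.card N := by
                                    by_contra h3
                                    refine hN N hNn hNb (solvable_of_not_three _ N rfl h3 ?_)
                                    intro h64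
                                    exact h16 (((by norm_num : (16 : ℕ) ∣ 64).trans h64).trans
                                      N.card_subgroup_dvd_card)
                                  apply hE
                                  refine E_of_subgroup _ (hsub _ hNt) ?_
                                  intro p hp hpπ
                                  rcases hpπ with rfl | hpπ
                                  · exact not_two_dvd_index S _ (hSN N hNn hNb)
                                  · rw [Set.mem_singleton_iff] at hpπ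
                                    subst hpπ
                                    exact not_dvd_index_of_sq _ h9 h3 }
    -- S is elementary abelian
    obtain ⟨⟨z, hzS⟩, hz⟩ := exists_prime_orderOf_dvd_card' (G := (S : Subgroup G)) 2
      (by rw [hS8]; norm_num)
    rw [Subgroup.orderOf_mk] at hz
    have hzz : z * z = 1 := by rw [← pow_two, ← hz, pow_orderOf_eq_one]
    have hz1 : z ≠ 1 := by
      rintro rfl
      rw [orderOf_one] at hz
      norm_num at hz
    have hsq : ∀ x ∈ (S : Subgroup G), x * x = 1 := by
      intro x hx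
      by_cases hx1 : x = 1
      · rw [hx1, mul_one]
      · obtain ⟨n, -, hn⟩ := htrans z hzS x hx hz1 hx1
        rw [← hn]
        calc n * z * n⁻¹ * (n * z * n⁻¹) = n * (z * z) * n⁻¹ := by group
          _ = 1 := by rw [hzz]; group
    have hcomm : ∀ a ∈ (S : Subgroup G), ∀ b ∈ (S : Subgroup G), a * b = b * a := by
      intro a ha b hb
      have h1 := hsq (a * b) (mul_mem ha hb)
      have h2 : (a * b)⁻¹ = a * b := inv_eq_of_mul_eq_one_right h1
      have h3 : a⁻¹ = a := inv_eq_of_mul_eq_one_right (hsq a ha)
      have h4 : b⁻¹ = b := inv_eq_of_mul_eq_one_right (hsq b hb)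
      rw [mul_inv_rev, h3, h4] at h2
      exact h2.symm
    have h8G : 8 ∣ Nat.card G := hS8 ▸ (S : Subgroup G).card_subgroup_dvd_card
    rcases walter hns S hcomm with ⟨a, ha, F, _, _, hF, ⟨e⟩⟩ | ⟨F, _, _, hF, -, ⟨e⟩⟩ |
      ⟨F, _, _, hF, -, -, hC⟩
    · have h1 := Cfsg.Agent.ClassicalGeometry.PSL2Basic.card_PSL2_even (F := F)
        (by rw [hF]; exact (Nat.even_pow.2 ⟨even_two, by omega⟩))
      rw [← Nat.card_congr e.toEquiv, hF] at h1
      have ha3 : a ≤ 3 := by
        by_contra h
        apply h16
        rw [h1]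
        exact (pow_dvd_pow 2 (by omega : 4 ≤ a)).mul_right _
      interval_cases a
      · rw [h1] at h8G
        norm_num at h8G
      · apply h9
        rw [h1]
        norm_num
    · obtain ⟨j, hj⟩ := card_psl_odd hF
      rw [← Nat.card_congr e.toEquiv] at hj
      omega
    · -- involution centralisers
      obtain ⟨e⟩ := hC z hz
      have h3 : 3 ∣ Nat.card (Subgroup.centralizer ({z} : Set G)) := by
        rw [Nat.card_congr e.toEquiv, Nat.card_prod]
        exact (Cfsg.Agent.ThreePrime.OrderThree.three_dvd_card_psl F).mul_left _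
      have hle : Subgroup.centralizer ({z} : Set G) ≤
          Subgroup.normalizer ((zpowers z : Subgroup G) : Set G) := by
        intro x hx
        rw [Subgroup.mem_centralizer_singleton_iff] at hx
        rw [Subgroup.mem_normalizer_iff]
        have hz' : x * z * x⁻¹ = z := by rw [hx]; group
        intro y
        constructor
        · intro hy
          obtain ⟨i, rfl⟩ := mem_zpowers_iff.mp hy
          rw [← conj_zpow, hz']
          exact ⟨i, rfl⟩
        · intro hy
          obtain ⟨i, hi⟩ := mem_zpowers_iff.mp hy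
          have : y = z ^ i := by
            have h5 : y = x⁻¹ * (z ^ i) * x := by rw [hi]; group
            have hz'' : x⁻¹ * z * x = z := by
              calc x⁻¹ * z * x = x⁻¹ * (z * x) := by group
                _ = x⁻¹ * (x * z) := by rw [hx]
                _ = z := by group
            have h6 : x⁻¹ * (z ^ i) * x = (x⁻¹ * z * x) ^ i := by
              have := conj_zpow (i := i) (a := x⁻¹) (b := z)
              rw [inv_inv] at this
              exact this.symm
            rw [h5, h6, hz'']
          rw [this]; exact ⟨i, rfl⟩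
      refine hloc (zpowers z) ?_ ?_ ?_ (h3.trans (Subgroup.card_dvd_of_le hle))
      · rw [zpowers_le]; exact hzS
      · rw [Ne, zpowers_eq_bot]; exact hz1
      · refine le_trans ?_ hle
        intro s hs
        rw [Subgroup.mem_centralizer_singleton_iff]
        exact hcomm s hs z hzS

/-- The case of `{2, 3, 5}`. -/
theorem claim60 (n : ℕ) : ∀ (G : Type u) [Group G] [Finite G], Nat.card G = n →
    ¬ 8 ∣ Nat.card G → ¬ 9 ∣ Nat.card G → ¬ 25 ∣ Nat.card G → E {2, 3, 5} G := by
  classical
  haveI : Fact (Nat.Prime 2) := ⟨Nat.prime_two⟩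
  induction n using Nat.strong_induction_on with
  | _ n ih =>
    intro G _ _ hn h8 h9 h25
    by_contra hE
    have hns : ¬ Group.IsSolvable G := fun h => hE (E_of_solvable h _)
    have hsub : ∀ H : Subgroup G, H ≠ ⊤ → E {2, 3, 5} H := by
      intro H hH
      have hlt : Nat.card H < Nat.card G := by
        rcases (Nat.le_of_dvd Nat.card_pos H.card_subgroup_dvd_card).lt_or_eq with h | h
        · exact h
        · exact absurd (Subgroup.eq_top_of_card_eq H h) hH
      exact ih _ (hn ▸ hlt) H rfl (fun h => h8 (h.trans H.card_subgroup_dvd_card))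
        (fun h => h9 (h.trans H.card_subgroup_dvd_card))
        (fun h => h25 (h.trans H.card_subgroup_dvd_card))
    -- nontrivial normal subgroups have order divisible by 4
    have hN : ∀ N : Subgroup G, N.Normal → N ≠ ⊥ → 4 ∣ Nat.card N := by
      intro N hNn hNb
      by_contra h4N
      have hNs := solvable_of_not_four h4N
      haveI := hNn
      have hc := N.card_eq_card_quotient_mul_card_subgroup
      have h1 : 1 < Nat.card N := by
        rw [Finite.one_lt_card_iff_nontrivial, Subgroup.nontrivial_iff_ne_bot]
        exact hNb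
      have h4 : Nat.card (G ⧸ N) < Nat.card G := by
        have h5 : 0 < Nat.card (G ⧸ N) := Nat.card_pos
        rw [hc]
        exact lt_mul_of_one_lt_right h5 h1
      have hq := quotient_step hE hsub N (ih _ (hn ▸ h4) (G ⧸ N) rfl (fun h => h8 (h.trans ⟨_, hc⟩))
        (fun h => h9 (h.trans ⟨_, hc⟩)) (fun h => h25 (h.trans ⟨_, hc⟩)))
      have hqs : ¬ Group.IsSolvable (G ⧸ N) := fun h => hns (solvable_of_ext N hNs h)
      have h4q : 4 ∣ Nat.card (G ⧸ N) := by
        by_contra h
        exact hqs (solvable_of_not_four h)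
      have h3q : 3 ∣ Nat.card (G ⧸ N) := by
        by_contra h
        refine hqs (solvable_of_not_three _ (G ⧸ N) rfl h (fun h64 => h8 ?_))
        exact ((by norm_num : (8 : ℕ) ∣ 64).trans h64).trans ⟨_, hc⟩
      have h5q : 5 ∣ Nat.card (G ⧸ N) := by
        by_contra h5
        apply hqs
        have hpos : Nat.card (G ⧸ N) ≠ 0 := Nat.card_pos.ne'
        obtain ⟨a, r, hr, har⟩ := Nat.exists_eq_pow_mul_and_not_dvd hpos 2 (by norm_num)
        have hr0 : r ≠ 0 := by rintro rfl; exact hr ⟨0, rfl⟩
        obtain ⟨b, s, hs, hbs⟩ := Nat.exists_eq_pow_mul_and_not_dvd hr0 3 (by norm_num)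
        have hs1 : s = 1 := by
          by_contra hs1
          obtain ⟨p, hp, hps⟩ := Nat.exists_prime_and_dvd hs1
          have h6 : p ∣ r := hbs ▸ hps.mul_left _
          have h7 : p ∣ Nat.card (G ⧸ N) := har ▸ h6.mul_left _
          rcases hq p hp h7 with h8 | h8 | h8
          · exact hr (h8 ▸ h6)
          · exact hs (h8 ▸ hps)
          · rw [Set.mem_singleton_iff] at h8
            exact h5 (h8 ▸ h7)
        apply Cfsg.Agent.GH.C2SevenTop.solvable_of_dvd (p := 2) (q := 3) (a := a) (b := b)
          Nat.prime_two Nat.prime_three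
        rw [har, hbs, hs1, mul_one]
      -- so N is a 30'-group
      have hN30 : ∀ p : ℕ, p.Prime → p ∈ ({2, 3, 5} : Set ℕ) → ¬ p ∣ Nat.card N := by
        intro p hp hpπ hd
        rcases hpπ with rfl | rfl | h
        · apply h8; rw [hc]; exact Nat.mul_dvd_mul h4q hd
        · apply h9; rw [hc]; exact Nat.mul_dvd_mul h3q hd
        · rw [Set.mem_singleton_iff] at h
          subst h
          apply h25; rw [hc]; exact Nat.mul_dvd_mul h5q hd
      have hcop : (Nat.card N).Coprime N.index :=
        Nat.coprime_of_dvd (fun p hp h1 h2 => hN30 p hp (hq p hp h2) h1)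
      obtain ⟨H, hH⟩ := Subgroup.exists_right_complement'_of_coprime hcop
      apply hE
      refine ⟨H, ?_, ?_⟩
      · rw [← hH.symm.index_eq_card]
        exact hq
      · rw [hH.index_eq_card]
        exact hN30
    obtain ⟨S⟩ : Nonempty (Sylow 2 G) := inferInstance
    have h4G : 4 ∣ Nat.card G := by
      by_contra h
      exact hns (solvable_of_not_four h)
    have hS4 : Nat.card (S : Subgroup G) = 4 := by
      obtain ⟨k, hk⟩ := IsPGroup.iff_card.mp S.isPGroup'
      have hk3 : k ≤ 2 := by
        by_contra h
        apply h8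
        have h1 : 2 ^ 3 ∣ Nat.card (S : Subgroup G) := by rw [hk]; exact pow_dvd_pow 2 (by omega)
        exact h1.trans (S : Subgroup G).card_subgroup_dvd_card
      have h2 : Nat.card (S : Subgroup G) ∣ 4 := by rw [hk]; exact pow_dvd_pow 2 hk3
      have h3 : 4 ∣ Nat.card (S : Subgroup G) := by
        have : 2 ^ 2 ∣ Nat.card (S : Subgroup G) := S.pow_dvd_card_of_pow_dvd_card h4G
        exact this
      exact Nat.dvd_antisymm h2 h3
    -- the normaliser of S
    have hNS3 : 3 ∣ Nat.card (Subgroup.normalizer ((S : Subgroup G) : Set G)) := by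
      rcases Cfsg.Agent.H505.TwoLocal.alternatives S (fun h => h8 ((by norm_num : (8 : ℕ) ∣ 16).trans h))
        (no_complement hns S) with ⟨Q, hQS, h4Q, hSQ, h3⟩ | ⟨hS, -⟩
      · have hQS' : Q = S := by
          apply Subgroup.eq_of_le_of_card_ge hQS
          rw [hS4]
          exact Nat.le_of_dvd Nat.card_pos h4Q
        subst hQS'
        exact h3
      · omega
    have hSN : ∀ N : Subgroup G, N.Normal → 4 ∣ Nat.card N → (S : Subgroup G) ≤ N := by
      intro N hNn h4N
      haveI := hNn
      -- order of S ∩ N
      have h1 := Cfsg.Agent.Lib.SylowNormalInf.normalizer_inf_sup_eq_top S N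
      have h2 : ¬ 2 ∣ N.index := by
        intro h2
        apply h8
        rw [← N.card_mul_index]
        exact Nat.mul_dvd_mul h4N h2
      -- the image of S in G/N is trivial
      intro s hs
      have h3 : (QuotientGroup.mk s : G ⧸ N) ^ Nat.card (S : Subgroup G) = 1 := by
        rw [← QuotientGroup.mk_pow]
        have h4 : s ^ Nat.card (S : Subgroup G) = 1 := by
          have : (⟨s, hs⟩ : (S : Subgroup G)) ^ Nat.card (S : Subgroup G) = 1 := pow_card_eq_one'
          exact congrArg Subtype.val this
        rw [h4]; rfl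
      have h5 : orderOf (QuotientGroup.mk s : G ⧸ N) ∣ N.index := orderOf_dvd_natCard _
      have h6 : orderOf (QuotientGroup.mk s : G ⧸ N) ∣ 2 ^ 2 := by
        rw [hS4] at h3
        exact orderOf_dvd_of_pow_eq_one h3
      obtain ⟨j, -, hj⟩ := (Nat.dvd_prime_pow Nat.prime_two).mp h6
      have hj0 : j = 0 := by
        by_contra hj0
        apply h2
        rw [hj] at h5
        exact (dvd_pow_self 2 hj0).trans h5
      rw [hj0, pow_zero, orderOf_eq_one_iff] at hj
      exact (QuotientGroup.eq_one_iff s).mp hj
    have hnt : Nontrivial G := by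
      by_contra h
      rw [not_nontrivial_iff_subsingleton] at h
      exact hns inferInstance
    have hsimp : ∀ N : Subgroup G, N.Normal → N = ⊥ ∨ N = ⊤ := by
      intro N hNn
      by_contra hcon
      push Not at hcon
      obtain ⟨hNb, hNt⟩ := hcon
      haveI := hNn
      have h4N := hN N hNn hNb
      have hSleN := hSN N hNn h4N
      have h2i := not_two_dvd_index S N hSleN
      have hNns : ¬ Group.IsSolvable N := by
        intro h
        apply hns
        exact solvable_of_ext N h (solvable_of_odd (G := G ⧸ N) h2i)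
      have h3N : 3 ∣ Nat.card N := by
        by_contra h3
        refine hNns (solvable_of_not_three _ N rfl h3 ?_)
        intro h64
        exact h8 (((by norm_num : (8 : ℕ) ∣ 64).trans h64).trans N.card_subgroup_dvd_card)
      by_cases h5 : 5 ∣ Nat.card N ∨ ¬ 5 ∣ Nat.card G
      · apply hE
        refine E_of_subgroup _ (hsub _ hNt) ?_
        intro p hp hpπ
        rcases hpπ with rfl | rfl | hpπ
        · exact h2i
        · exact not_dvd_index_of_sq _ h9 h3N
        · rw [Set.mem_singleton_iff] at hpπ
          subst hpπ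
          rcases h5 with h5 | h5
          · exact not_dvd_index_of_sq _ h25 h5
          · exact fun h => h5 (h.trans N.index_dvd_card)
      · push Not at h5
        obtain ⟨h5N, h5G⟩ := h5
        -- Frattini
        have hfr := Cfsg.Agent.Lib.SylowNormalInf.normalizer_inf_sup_eq_top S N
        rw [inf_eq_left.mpr hSleN] at hfr
        have h5i : ¬ 5 ∣ (Subgroup.normalizer ((S : Subgroup G) : Set G)).index := by
          intro h
          apply h5N
          have h6 : (Subgroup.normalizer ((S : Subgroup G) : Set G)).relIndex N =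
              (Subgroup.normalizer ((S : Subgroup G) : Set G)).index := by
            set L := Subgroup.normalizer ((S : Subgroup G) : Set G) with hL
            have k1 : N.relIndex L = N.index := by
              rw [← Subgroup.relIndex_sup_right (H := L) (K := N), hfr, Subgroup.relIndex_top_right]
            have k2 : (N ⊓ L).relIndex L * L.index = (N ⊓ L).index :=
              Subgroup.relIndex_mul_index inf_le_right
            have k3 : (N ⊓ L).relIndex N * N.index = (N ⊓ L).index :=
              Subgroup.relIndex_mul_index inf_le_left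
            rw [Subgroup.inf_relIndex_right, k1] at k2
            rw [Subgroup.inf_relIndex_left] at k3
            have k4 : 0 < N.index := Nat.pos_of_ne_zero Subgroup.FiniteIndex.index_ne_zero
            have k5 : L.relIndex N * N.index = L.index * N.index := by rw [k3, ← k2, mul_comm]
            exact Nat.eq_of_mul_eq_mul_right k4 k5
          rw [← h6] at h
          exact h.trans (Subgroup.relIndex_dvd_card _ _)
        apply hE
        refine E_of_subgroup _ (E_of_solvable (solvable_sylow_normalizer S) _) ?_
        intro p hp hpπ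
        rcases hpπ with rfl | rfl | hpπ
        · exact not_two_dvd_index S _ Subgroup.le_normalizer
        · exact not_dvd_index_of_sq _ h9 hNS3
        · rw [Set.mem_singleton_iff] at hpπ
          subst hpπ
          exact h5i
    haveI : IsSimpleGroup G := { toNontrivial := hnt, eq_bot_or_eq_top_of_normal := hsimp }
    by_cases h5G : 5 ∣ Nat.card G
    · have hcomm : ∀ a ∈ (S : Subgroup G), ∀ b ∈ (S : Subgroup G), a * b = b * a := by
        have h1 := IsPGroup.isMulCommutative_of_card_eq_prime_sq (p := 2) (G := (S : Subgroup G))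
          (by rw [hS4]; norm_num)
        intro a ha b hb
        have := h1.is_comm.comm ⟨a, ha⟩ ⟨b, hb⟩
        exact congrArg Subtype.val this
      rcases walter hns S hcomm with ⟨a, ha, F, _, _, hF, ⟨e⟩⟩ | ⟨F, _, _, hF, -, ⟨e⟩⟩ |
        ⟨F, _, _, hF, -, ⟨t, ht⟩, hC⟩
      · have h1 := Cfsg.Agent.ClassicalGeometry.PSL2Basic.card_PSL2_even (F := F)
          (by rw [hF]; exact (Nat.even_pow.2 ⟨even_two, by omega⟩))
        rw [← Nat.card_congr e.toEquiv, hF] at h1
        have ha3 : a ≤ 2 := by
          by_contra h
          apply h8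
          rw [h1]
          exact (pow_dvd_pow 2 (by omega : 3 ≤ a)).mul_right _
        have ha2 : a = 2 := by omega
        subst ha2
        apply hE
        refine ⟨⊤, ?_, ?_⟩
        · intro p hp hd
          rw [Subgroup.card_top, h1] at hd
          have hd' : p ∣ 2 * 2 * 3 * 5 := by norm_num at hd ⊢; exact hd
          rcases (hp.dvd_mul).mp hd' with h | h
          · rcases (hp.dvd_mul).mp h with h | h
            · rcases (hp.dvd_mul).mp h with h | h
              · left; exact (Nat.prime_dvd_prime_iff_eq hp Nat.prime_two).mp h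
              · left; exact (Nat.prime_dvd_prime_iff_eq hp Nat.prime_two).mp h
            · right; left; exact (Nat.prime_dvd_prime_iff_eq hp Nat.prime_three).mp h
          · right; right; exact (Nat.prime_dvd_prime_iff_eq hp Nat.prime_five).mp h
        · intro p hp _ hd
          rw [Subgroup.index_top] at hd
          exact hp.ne_one (Nat.dvd_one.mp hd)
      · have hodd : Odd (Fintype.card F) := by rw [Nat.odd_iff]; omega
        have h1 := Cfsg.Agent.ClassicalGeometry.PSL2Basic.card_PSL2_odd (F := F) hodd
        rw [← Nat.card_congr e.toEquiv] at h1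
        have h5 : 5 ∣ Fintype.card F * (Fintype.card F ^ 2 - 1) := by
          rw [← h1]; exact h5G.mul_right 2
        obtain ⟨H, ⟨f⟩⟩ := (Cfsg.Agent.S0804.result (F := F) rfl).mpr h5
        -- transport to G
        set K : Subgroup G := H.comap e.toMonoidHom with hK
        have hKc : Nat.card K = 60 := by
          have h2 : Nat.card K = Nat.card H := by
            have : K = H.map e.symm.toMonoidHom := by
              rw [hK]
              ext x
              simp only [mem_comap, mem_map, MulEquiv.coe_toMonoidHom]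
              constructor
              · intro hx
                exact ⟨e x, hx, e.symm_apply_apply x⟩
              · rintro ⟨y, hy, rfl⟩
                rw [e.apply_symm_apply]; exact hy
            rw [this]
            exact Nat.card_congr (H.equivMapOfInjective _ e.symm.injective).toEquiv.symm
          rw [h2, Nat.card_congr f.toEquiv, nat_card_alternatingGroup]
          simp [Nat.factorial]
        apply hE
        refine ⟨K, ?_, ?_⟩
        · intro p hp hd
          rw [hKc] at hd
          have hd' : p ∣ 2 * 2 * 3 * 5 := by norm_num at hd ⊢; exact hd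
          rcases (hp.dvd_mul).mp hd' with h | h
          · rcases (hp.dvd_mul).mp h with h | h
            · rcases (hp.dvd_mul).mp h with h | h
              · left; exact (Nat.prime_dvd_prime_iff_eq hp Nat.prime_two).mp h
              · left; exact (Nat.prime_dvd_prime_iff_eq hp Nat.prime_two).mp h
            · right; left; exact (Nat.prime_dvd_prime_iff_eq hp Nat.prime_three).mp h
          · right; right; exact (Nat.prime_dvd_prime_iff_eq hp Nat.prime_five).mp h
        · intro p hp hpπ hd
          have h2 := K.card_mul_index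
          rw [hKc] at h2
          obtain ⟨c, hc⟩ := hd
          rcases hpπ with rfl | rfl | hpπ
          · apply h8; rw [← h2, hc]; exact ⟨15 * c, by ring⟩
          · apply h9; rw [← h2, hc]; exact ⟨20 * c, by ring⟩
          · rw [Set.mem_singleton_iff] at hpπ
            subst hpπ
            apply h25; rw [← h2, hc]; exact ⟨12 * c, by ring⟩
      · obtain ⟨e⟩ := hC t ht
        obtain ⟨j, hj⟩ := card_psl_odd hF
        apply h8
        have h1 : Nat.card (Subgroup.centralizer ({t} : Set G)) = 2 * (4 * (2 * j + 1)) := by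
          rw [Nat.card_congr e.toEquiv, Nat.card_prod, hj]
          congr 1
          rw [Nat.card_congr Multiplicative.toAdd, Nat.card_zmod]
        have h2 : 8 ∣ Nat.card (Subgroup.centralizer ({t} : Set G)) := by
          rw [h1]; exact ⟨2 * j + 1, by ring⟩
        exact h2.trans (Subgroup.card_subgroup_dvd_card _)
    · apply hE
      refine E_mono (claim12 h8 h9) ?_ ?_
      · intro p hp
        rcases hp with h | h
        · left; exact h
        · right; left; exact h
      · intro p hp hp' _
        rcases hp with rfl | rfl | hp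
        · exact absurd (Or.inl rfl) hp'
        · exact absurd (Or.inr rfl) hp'
        · rw [Set.mem_singleton_iff] at hp
          subst hp
          exact h5G

end Cfsg.Agent.H505.HallNumTwo
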